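import Mathlib
import Cfsg.Prelude.Def_Solvable
import Cfsg.Prelude.Def_CaseTheorems

/-!
# Sims' lemma for a dihedral quotient (S4385, S2772) — contexts and package statements

`DihT L Q M x n` : type-level dihedral data (`L ⧸ Q` dihedral of order `2n`, `n` odd; `M` the
rotation part, `x` a generator of `M` modulo `Q`).
`DihG H Q M x n` : the same for a subgroup `H` of an ambient group.
`Ctx H P Q M x y n` : `DihG` plus a Sylow 2-subgroup `P` of `H` normalized by `y`, with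
no nontrivial `N ≤ P` such that `N` and `y N y⁻¹` are both normalized by `H`.
-/

namespace Cfsg.Agent.Lib.Helper30.DSims

universe u

open Pointwise

/-- Type-level dihedral data. -/
structure DihT (L : Type u) [Group L] (Q M : Subgroup L) (x : L) (n : ℕ) : Prop where
  hQn : Q.Normal
  hQM : Q ≤ M
  hMidx : M.index = 2
  hn : Odd n
  hxM : x ∈ M
  hx1 : x ∉ Q
  hxn : x ^ n ∈ Q
  hgen : ∀ m ∈ M, ∃ k : ℕ, m * x ^ k ∈ Q
  hinv : ∀ h : L, h ∉ M → h * x * h⁻¹ * x ∈ Q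

/-- Subgroup-level dihedral data. -/
structure DihG {G : Type u} [Group G] (H Q M : Subgroup G) (x : G) (n : ℕ) : Prop where
  hQM : Q ≤ M
  hMH : M ≤ H
  hQn : ∀ h ∈ H, ∀ q ∈ Q, h * q * h⁻¹ ∈ Q
  hMn : ∀ h ∈ H, ∀ m ∈ M, h * m * h⁻¹ ∈ M
  hMidx : M.relIndex H = 2
  hn : Odd n
  hxM : x ∈ M
  hx1 : x ∉ Q
  hxn : x ^ n ∈ Q
  hgen : ∀ m ∈ M, ∃ k : ℕ, m * x ^ k ∈ Q
  hinv : ∀ h ∈ H, h ∉ M → h * x * h⁻¹ * x ∈ Q

/-- The Sims context. -/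
structure Ctx {G : Type u} [Group G] (H P Q M : Subgroup G) (x y : G) (n : ℕ) : Prop where
  dih : DihG H Q M x n
  hPH : P ≤ H
  hQP : Q ≤ P
  hPQ : Q.relIndex P = 2
  hPM : P ⊓ M = Q
  hy : MulAut.conj y • P = P
  hNC : ∀ N : Subgroup G, N ≤ P → H ≤ Subgroup.normalizer (N : Set G) →
      H ≤ Subgroup.normalizer ((MulAut.conj y • N : Subgroup G) : Set G) → N = ⊥
  hQ1 : Q ≠ ⊥

/-- (P1) `|P| = 2 ^ t`, `t ≤ 4` (from helper49's `lemSimsCore` with `g = x * y`). -/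
def LemCardP : Prop :=
  ∀ (G : Type u) [Group G] [Finite G] (H P Q M : Subgroup G) (x y : G) (n : ℕ),
    Ctx H P Q M x y n → ∃ t : ℕ, t ≤ 4 ∧ Nat.card P = 2 ^ t

/-- (P2) `Q` has exponent 2. -/
def LemExpTwo : Prop :=
  ∀ (G : Type u) [Group G] [Finite G] (H P Q M : Subgroup G) (x y : G) (n : ℕ),
    Ctx H P Q M x y n → (∃ t : ℕ, t ≤ 4 ∧ Nat.card P = 2 ^ t) → ∀ q ∈ Q, q * q = 1

/-- (P3) `x ^ 3` centralizes `Q`. -/
def LemCube : Prop :=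
  ∀ (G : Type u) [Group G] [Finite G] (H P Q M : Subgroup G) (x y : G) (n : ℕ),
    Ctx H P Q M x y n → (∀ q ∈ Q, q * q = 1) → ∀ q ∈ Q, x ^ 3 * q = q * x ^ 3

/-- (P4-24) identification, `|Q| = 4`. -/
def LemIdent24 : Prop :=
  ∀ (L : Type u) [Group L] [Finite L] (Q M : Subgroup L) (x : L) (n : ℕ),
    DihT L Q M x n → Nat.card Q = 4 → (∀ q ∈ Q, q * q = 1) →
    (∀ q ∈ Q, x ^ 3 * q = q * x ^ 3) → (∃ q ∈ Q, x * q ≠ q * x) →
    Nonempty (L ⧸ Cfsg.pPrimeCore 2 L ≃* Equiv.Perm (Fin 4))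

/-- (P4-48) identification, `|Q| = 8`. -/
def LemIdent48 : Prop :=
  ∀ (L : Type u) [Group L] [Finite L] (Q M : Subgroup L) (x : L) (n : ℕ),
    DihT L Q M x n → Nat.card Q = 8 → (∀ q ∈ Q, q * q = 1) →
    (∀ q ∈ Q, x ^ 3 * q = q * x ^ 3) → (∃ q ∈ Q, x * q ≠ q * x) →
    ∀ τ : L, τ * τ = 1 → τ ∉ M →
    Nonempty (L ⧸ Cfsg.pPrimeCore 2 L ≃* Equiv.Perm (Fin 4) × Multiplicative (ZMod 2))

/-- (P5) identification, `|Q| = 2`. -/
def LemIdentV4 : Prop :=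
  ∀ (L : Type u) [Group L] [Finite L] (Q M : Subgroup L) (x : L) (n : ℕ),
    DihT L Q M x n → Nat.card Q = 2 → ∀ P : Subgroup L, Q ≤ P → Nat.card P = 4 →
    (∀ p ∈ P, p * p = 1) →
    Nonempty (L ⧸ Cfsg.pPrimeCore 2 L ≃* Multiplicative (ZMod 2) × Multiplicative (ZMod 2))

/-- (P6) extraction of the dihedral data from `H ⧸ O₂(H) ≃* DihedralGroup n`. -/
def LemDihExtract : Prop :=
  ∀ (G : Type u) [Group G] [Finite G] (H : Subgroup G) (n : ℕ), 2 ≤ n →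
    Nonempty (↥H ⧸ Cfsg.pCore 2 ↥H ≃* DihedralGroup n) →
    ∀ P : Subgroup G, P ≤ H → IsPGroup 2 P → ¬ 2 ∣ P.relIndex H →
    ∃ (M₀ : Subgroup ↥H) (x₀ : ↥H), DihT ↥H (Cfsg.pCore 2 ↥H) M₀ x₀ n ∧
      (Cfsg.pCore 2 ↥H).map H.subtype ≤ P ∧
      ((Cfsg.pCore 2 ↥H).map H.subtype).relIndex P = 2 ∧
      P ⊓ M₀.map H.subtype = (Cfsg.pCore 2 ↥H).map H.subtype

end Cfsg.Agent.Lib.Helper30.DSims
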