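import Cfsg.Agent.Lib.Helper30.DSims.Defs

/-!
# Sims' lemma for a dihedral quotient — basic tools and the transfer `DihT → DihG`
-/

namespace Cfsg.Agent.Lib.Helper30.DSims

universe u

open Pointwise

variable {G : Type u} [Group G]

theorem mem_conj_smul_iff {N : Subgroup G} {g a : G} :
    a ∈ MulAut.conj g • N ↔ g⁻¹ * a * g ∈ N := by
  rw [Subgroup.mem_pointwise_smul_iff_inv_smul_mem, MulAut.smul_def, MulAut.conj_inv_apply]

theorem conj_mem_conj_smul {N : Subgroup G} {g a : G} (ha : a ∈ N) :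
    g * a * g⁻¹ ∈ MulAut.conj g • N := by
  rw [mem_conj_smul_iff]; simpa [mul_assoc] using ha

theorem conj_smul_eq_self_of_mem_normalizer {N : Subgroup G} {g : G}
    (hg : g ∈ Subgroup.normalizer (N : Set G)) : MulAut.conj g • N = N := by
  ext a
  rw [mem_conj_smul_iff]
  have h1 := (Subgroup.mem_normalizer_iff.mp hg) (g⁻¹ * a * g)
  rw [h1]
  simp [mul_assoc]

theorem mem_normalizer_of_conj_smul_eq {N : Subgroup G} {g : G}
    (hg : MulAut.conj g • N = N) : g ∈ Subgroup.normalizer (N : Set G) := by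
  rw [Subgroup.mem_normalizer_iff]
  intro a
  constructor
  · intro ha
    have := conj_mem_conj_smul (g := g) ha
    rwa [hg] at this
  · intro ha
    rw [← hg, mem_conj_smul_iff] at ha
    simpa [mul_assoc] using ha

theorem card_conj_smul (N : Subgroup G) (g : G) :
    Nat.card ↥(MulAut.conj g • N) = Nat.card ↥N :=
  (Nat.card_congr (Subgroup.equivSMul (MulAut.conj g) N).toEquiv).symm

theorem conj_smul_conj_smul (N : Subgroup G) (g : G) :
    MulAut.conj g • MulAut.conj g • N = MulAut.conj (g ^ 2) • N := by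
  rw [smul_smul, ← map_mul, pow_two]

theorem card_mul_two_of_relIndex {Q P : Subgroup G} (hQP : Q ≤ P) (h : Q.relIndex P = 2) :
    Nat.card Q * 2 = Nat.card P := by
  have h1 := (Q.subgroupOf P).card_mul_index
  rw [Nat.card_congr (Subgroup.subgroupOfEquivOfLe hQP).toEquiv] at h1
  rw [← h1]; congr 1; exact h.symm

/-- Transfer of the type-level dihedral data to the subgroup level. -/
theorem dihG_of_dihT (H : Subgroup G) {Q₀ M₀ : Subgroup ↥H} {x₀ : ↥H} {n : ℕ}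
    (h : DihT ↥H Q₀ M₀ x₀ n) :
    DihG H (Q₀.map H.subtype) (M₀.map H.subtype) (x₀ : G) n := by
  have hMn : M₀.Normal := Subgroup.normal_of_index_eq_two h.hMidx
  have hQn := h.hQn
  refine ⟨Subgroup.map_mono h.hQM, Subgroup.map_subtype_le _, ?_, ?_, ?_, h.hn, ?_, ?_, ?_, ?_, ?_⟩
  · rintro g hg q ⟨q₀, hq₀, rfl⟩
    exact ⟨⟨g, hg⟩ * q₀ * ⟨g, hg⟩⁻¹, hQn.conj_mem q₀ hq₀ ⟨g, hg⟩, rfl⟩
  · rintro g hg m ⟨m₀, hm₀, rfl⟩
    exact ⟨⟨g, hg⟩ * m₀ * ⟨g, hg⟩⁻¹, hMn.conj_mem m₀ hm₀ ⟨g, hg⟩, rfl⟩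
  · have : (M₀.map H.subtype).subgroupOf H = M₀ :=
      Subgroup.comap_map_eq_self_of_injective H.subtype_injective M₀
    rw [Subgroup.relIndex, this]; exact h.hMidx
  · exact ⟨x₀, h.hxM, rfl⟩
  · rintro ⟨q₀, hq₀, hq⟩
    have : q₀ = x₀ := Subtype.ext hq
    exact h.hx1 (this ▸ hq₀)
  · exact ⟨x₀ ^ n, h.hxn, by simp⟩
  · rintro m ⟨m₀, hm₀, rfl⟩
    obtain ⟨k, hk⟩ := h.hgen m₀ hm₀
    exact ⟨k, ⟨m₀ * x₀ ^ k, hk, by simp⟩⟩
  · intro g hg hgM
    have : (⟨g, hg⟩ : ↥H) ∉ M₀ := fun hc => hgM ⟨⟨g, hg⟩, hc, rfl⟩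
    exact ⟨_, h.hinv ⟨g, hg⟩ this, by simp⟩

end Cfsg.Agent.Lib.Helper30.DSims
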