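import Cfsg.Agent.Lib.Helper30.DSims.Basic

/-!
# Sims' lemma for a dihedral quotient — S4385 from the packages
-/

namespace Cfsg.Agent.Lib.Helper30.DSims

universe u

open Pointwise

variable {G : Type u} [Group G]

/-- `(NC)` from the hypotheses of S4385. -/
theorem nc_of_hyQ (H P : Subgroup G) (hPH : P ≤ H) (y : G)
    (hy2 : y ^ 2 ∈ P ⊔ Subgroup.centralizer (P : Set G)) (hyN : MulAut.conj y • P = P)
    (hyQ : ∀ Q : Subgroup G, Q ≤ P → (Q.subgroupOf H).Normal → MulAut.conj y • Q = Q → Q = ⊥)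
    (N : Subgroup G) (hNP : N ≤ P) (hN1 : H ≤ Subgroup.normalizer (N : Set G))
    (hN2 : H ≤ Subgroup.normalizer ((MulAut.conj y • N : Subgroup G) : Set G)) : N = ⊥ := by
  have hyN' : MulAut.conj y • N ≤ P := by
    rw [← hyN]; exact Subgroup.pointwise_smul_le_pointwise_smul_iff.mpr hNP
  have hy2N : y ^ 2 ∈ Subgroup.normalizer (N : Set G) := by
    have h1 : P ⊔ Subgroup.centralizer (P : Set G) ≤ Subgroup.normalizer (N : Set G) := by
      refine sup_le (hPH.trans hN1) ?_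
      exact (Subgroup.centralizer_le (by exact_mod_cast hNP)).trans
        (Subgroup.centralizer_le_normalizer _)
    exact h1 hy2
  have hW : N ⊔ MulAut.conj y • N = ⊥ := by
    apply hyQ
    · exact sup_le hNP hyN'
    · rw [Subgroup.normal_subgroupOf_iff_le_normalizer (sup_le (hNP.trans hPH) (hyN'.trans hPH))]
      intro g hg
      have h1 := conj_smul_eq_self_of_mem_normalizer (hN1 hg)
      have h2 := conj_smul_eq_self_of_mem_normalizer (hN2 hg)
      apply mem_normalizer_of_conj_smul_eq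
      rw [Subgroup.smul_sup, h1, h2]
    · rw [Subgroup.smul_sup, conj_smul_conj_smul, conj_smul_eq_self_of_mem_normalizer hy2N,
        sup_comm]
  exact le_bot_iff.mp (hW ▸ le_sup_left)

theorem eq_of_card_two {Q : Subgroup G} [Finite G] (h : Nat.card Q = 2) {a b : G} (ha : a ∈ Q)
    (hb : b ∈ Q) (ha1 : a ≠ 1) (hb1 : b ≠ 1) : a = b := by
  classical
  by_contra hab
  haveI : Fintype ↥Q := Fintype.ofFinite _
  have h3 : ({1, ⟨a, ha⟩, ⟨b, hb⟩} : Finset ↥Q).card = 3 := by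
    rw [Finset.card_insert_of_notMem, Finset.card_insert_of_notMem, Finset.card_singleton]
    · simpa using fun h' : a = b => hab h'
    · simp only [Finset.mem_insert, Finset.mem_singleton, not_or]
      refine ⟨fun h' => ha1 ?_, fun h' => hb1 ?_⟩
      · have h'' : (1 : G) = a := congrArg Subtype.val h'
        exact h''.symm
      · have h'' : (1 : G) = b := congrArg Subtype.val h'
        exact h''.symm
  have h4 := Finset.card_le_univ ({1, ⟨a, ha⟩, ⟨b, hb⟩} : Finset ↥Q)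
  rw [h3, ← Nat.card_eq_fintype_card, h] at h4
  omega

theorem comm_of_exp_two {Q : Subgroup G} (hexp : ∀ q ∈ Q, q * q = 1) {a b : G} (ha : a ∈ Q)
    (hb : b ∈ Q) : a * b = b * a := by
  have h1 := hexp (a * b) (Q.mul_mem ha hb)
  have h2 := hexp a ha
  have h3 := hexp b hb
  calc a * b = a * (a * b * (a * b)) * b := by rw [h1]; group
    _ = (a * a) * (b * a) * (b * b) := by group
    _ = b * a := by rw [h2, h3]; group

namespace Ctx

variable {H P Q M : Subgroup G} {x y : G} {n : ℕ}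

theorem hHQ (c : Ctx H P Q M x y n) : H ≤ Subgroup.normalizer (Q : Set G) := by
  intro h hh
  rw [Subgroup.mem_normalizer_iff]
  intro q
  refine ⟨fun hq => c.dih.hQn h hh q hq, fun hq => ?_⟩
  have := c.dih.hQn h⁻¹ (H.inv_mem hh) _ hq
  simpa [mul_assoc] using this

theorem hRP (c : Ctx H P Q M x y n) : MulAut.conj y • Q ≤ P := by
  have := c.hy
  rw [← this]; exact Subgroup.pointwise_smul_le_pointwise_smul_iff.mpr c.hQP

theorem hRne (c : Ctx H P Q M x y n) : MulAut.conj y • Q ≠ Q := by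
  intro h
  exact c.hQ1 (c.hNC Q c.hQP c.hHQ (by rw [h]; exact c.hHQ))

theorem exists_tau (c : Ctx H P Q M x y n) [Finite G] (hexp : ∀ q ∈ Q, q * q = 1) :
    ∃ τ ∈ P, τ ∉ M ∧ τ * τ = 1 := by
  have h1 : ¬ MulAut.conj y • Q ≤ Q := by
    intro hle
    exact c.hRne (Subgroup.eq_of_le_of_card_ge hle (card_conj_smul Q y).ge)
  obtain ⟨τ, hτR, hτQ⟩ := SetLike.not_le_iff_exists.mp h1
  refine ⟨τ, c.hRP hτR, fun hM => hτQ ?_, ?_⟩
  · have : τ ∈ P ⊓ M := ⟨c.hRP hτR, hM⟩
    rwa [c.hPM] at this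
  · rw [mem_conj_smul_iff] at hτR
    have := hexp _ hτR
    have h2 : y⁻¹ * τ * y * (y⁻¹ * τ * y) = y⁻¹ * (τ * τ) * y := by group
    rw [h2] at this
    have h3 : τ * τ = y * (y⁻¹ * (τ * τ) * y) * y⁻¹ := by group
    rw [h3, this]; group

theorem exists_notMem (c : Ctx H P Q M x y n) : ∃ τ ∈ P, τ ∉ M := by
  have h1 : ¬ P ≤ Q := by
    intro hle
    have := Subgroup.relIndex_eq_one.mpr hle
    rw [c.hPQ] at this; omega
  obtain ⟨τ, hτP, hτQ⟩ := SetLike.not_le_iff_exists.mp h1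
  refine ⟨τ, hτP, fun hM => hτQ ?_⟩
  have : τ ∈ P ⊓ M := ⟨hτP, hM⟩
  rwa [c.hPM] at this

theorem le_sup (c : Ctx H P Q M x y n) : H ≤ M ⊔ P := by
  obtain ⟨τ, hτP, hτM⟩ := c.exists_notMem
  have h1 := Subgroup.relIndex_mul_relIndex M (M ⊔ P) H le_sup_left (sup_le c.dih.hMH c.hPH)
  rw [c.dih.hMidx] at h1
  have h2 : M.relIndex (M ⊔ P) ≠ 1 := by
    intro h
    have := Subgroup.relIndex_eq_one.mp h
    exact hτM (this (Subgroup.mem_sup_right hτP))
  have h3 : (M ⊔ P).relIndex H = 1 := by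
    have hd : M.relIndex (M ⊔ P) ∣ 2 := Dvd.intro _ h1
    have : M.relIndex (M ⊔ P) = 1 ∨ M.relIndex (M ⊔ P) = 2 := by
      have := (Nat.dvd_prime Nat.prime_two).mp hd
      exact this
    rcases this with h | h
    · exact absurd h h2
    · rw [h] at h1; omega
  exact Subgroup.relIndex_eq_one.mp h3

theorem hPR (c : Ctx H P Q M x y n) : P ≤ Subgroup.normalizer ((MulAut.conj y • Q : Subgroup G) : Set G) := by
  intro p hp
  apply mem_normalizer_of_conj_smul_eq
  have h1 : y⁻¹ * p * y ∈ P := by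
    have := c.hy
    rw [← this] at hp
    exact mem_conj_smul_iff.mp hp
  have h2 := conj_smul_eq_self_of_mem_normalizer (c.hHQ (c.hPH h1))
  calc MulAut.conj p • MulAut.conj y • Q = MulAut.conj (p * y) • Q := by
        rw [smul_smul, ← map_mul]
    _ = MulAut.conj (y * (y⁻¹ * p * y)) • Q := by congr 2; group
    _ = MulAut.conj y • MulAut.conj (y⁻¹ * p * y) • Q := by rw [smul_smul, ← map_mul]
    _ = MulAut.conj y • Q := by rw [h2]

/-- Case I: `x` centralizes `Q`. -/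
theorem caseI (c : Ctx H P Q M x y n) [Finite G]
    (hy2 : y ^ 2 ∈ P ⊔ Subgroup.centralizer (P : Set G))
    (hyQ : ∀ Q : Subgroup G, Q ≤ P → (Q.subgroupOf H).Normal → MulAut.conj y • Q = Q → Q = ⊥)
    (hexp : ∀ q ∈ Q, q * q = 1) (hxc : ∀ q ∈ Q, x * q = q * x) :
    Nat.card Q = 2 ∧ Nat.card P = 4 ∧ ∀ p ∈ P, p * p = 1 := by
  have hMc : ∀ m ∈ M, ∀ q ∈ Q, m * q = q * m := by
    intro m hm q hq
    obtain ⟨k, hk⟩ := c.dih.hgen m hm
    have h1 : Commute (m * x ^ k) q := comm_of_exp_two hexp hk hq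
    have h2 : Commute (x ^ k) q := (show Commute x q from hxc q hq).pow_left k
    have h3 : Commute (m * x ^ k * (x ^ k)⁻¹) q := h1.mul_left h2.inv_left
    have h4 : m * x ^ k * (x ^ k)⁻¹ = m := by group
    rw [h4] at h3; exact h3
  set D₀ : Subgroup G := Q ⊓ MulAut.conj y • Q with hD₀
  have hMD : M ≤ Subgroup.normalizer (D₀ : Set G) := by
    refine le_trans ?_ (Subgroup.centralizer_le_normalizer _)
    intro m hm
    rw [Subgroup.mem_centralizer_iff]
    intro d hd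
    exact (hMc m hm d hd.1).symm
  have hPD : P ≤ Subgroup.normalizer (D₀ : Set G) := by
    intro p hp
    apply mem_normalizer_of_conj_smul_eq
    rw [hD₀, Subgroup.smul_inf, conj_smul_eq_self_of_mem_normalizer (c.hHQ (c.hPH hp)),
      conj_smul_eq_self_of_mem_normalizer (c.hPR hp)]
  have hHD : H ≤ Subgroup.normalizer (D₀ : Set G) := c.le_sup.trans (sup_le hMD hPD)
  have hy2Q : y ^ 2 ∈ Subgroup.normalizer (Q : Set G) := by
    have h1 : P ⊔ Subgroup.centralizer (P : Set G) ≤ Subgroup.normalizer (Q : Set G) := by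
      refine sup_le (c.hPH.trans c.hHQ) ?_
      exact (Subgroup.centralizer_le (by exact_mod_cast c.hQP)).trans
        (Subgroup.centralizer_le_normalizer _)
    exact h1 hy2
  have hD0 : D₀ = ⊥ := by
    apply hyQ
    · exact inf_le_left.trans c.hQP
    · rw [Subgroup.normal_subgroupOf_iff_le_normalizer (inf_le_left.trans (c.hQP.trans c.hPH))]
      exact hHD
    · rw [hD₀, Subgroup.smul_inf, conj_smul_conj_smul, conj_smul_eq_self_of_mem_normalizer hy2Q,
        inf_comm]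
  have hdisj : Disjoint Q (MulAut.conj y • Q) := disjoint_iff.mpr hD0
  have hinj := Subgroup.mul_injective_of_disjoint hdisj
  have hcard := card_mul_two_of_relIndex c.hQP c.hPQ
  have hQ2 : 2 ≤ Nat.card Q := by
    have := (Subgroup.one_lt_card_iff_ne_bot Q).mpr c.hQ1
    omega
  -- the product map into `P`
  let f : ↥Q × ↥(MulAut.conj y • Q) → ↥P := fun g =>
    ⟨(g.1 : G) * (g.2 : G), P.mul_mem (c.hQP g.1.2) (c.hRP g.2.2)⟩
  have hf : Function.Injective f := by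
    intro a b hab
    exact hinj (congrArg Subtype.val hab)
  have hle := Nat.card_le_card_of_injective f hf
  rw [Nat.card_prod, card_conj_smul] at hle
  have hQc : Nat.card Q = 2 := by nlinarith
  have hPc : Nat.card P = 4 := by omega
  refine ⟨hQc, hPc, ?_⟩
  have hbij : Function.Bijective f := by
    rw [Nat.bijective_iff_injective_and_card]
    refine ⟨hf, ?_⟩
    rw [Nat.card_prod, card_conj_smul, hQc, hPc]
  intro p hp
  obtain ⟨⟨⟨q, hq⟩, ⟨r, hr⟩⟩, hqr⟩ := hbij.2 ⟨p, hp⟩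
  have hpe : p = q * r := (congrArg Subtype.val hqr).symm
  have hr2 : r * r = 1 := by
    rw [mem_conj_smul_iff] at hr
    have := hexp _ hr
    have h2 : y⁻¹ * r * y * (y⁻¹ * r * y) = y⁻¹ * (r * r) * y := by group
    rw [h2] at this
    have h3 : r * r = y * (y⁻¹ * (r * r) * y) * y⁻¹ := by group
    rw [h3, this]; group
  have hcomm : r * q = q * r := by
    by_cases hq1 : q = 1
    · rw [hq1]; group
    · have h1 : r * q * r⁻¹ ∈ Q := c.dih.hQn r (c.hPH (c.hRP hr)) q hq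
      have h2 : r * q * r⁻¹ ≠ 1 := by
        intro h
        apply hq1
        have : q = r⁻¹ * (r * q * r⁻¹) * r := by group
        rw [this, h]; group
      have h3 := eq_of_card_two hQc h1 hq h2 hq1
      calc r * q = r * q * r⁻¹ * r := by group
        _ = q * r := by rw [h3]
  rw [hpe]
  calc q * r * (q * r) = q * (r * q) * r := by group
    _ = q * (q * r) * r := by rw [hcomm]
    _ = (q * q) * (r * r) := by group
    _ = 1 := by rw [hexp q hq, hr2, one_mul]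

/-- Case II: `x` does not centralize `Q`. -/
theorem caseII (c : Ctx H P Q M x y n) [Finite G]
    (hxnc : ∃ q ∈ Q, x * q ≠ q * x) : Nat.card Q ≠ 2 := by
  intro hQc
  obtain ⟨q, hq, hne⟩ := hxnc
  have hxH : x ∈ H := c.dih.hMH c.dih.hxM
  have h1 : x * q * x⁻¹ ∈ Q := c.dih.hQn x hxH q hq
  have hq1 : q ≠ 1 := by
    rintro rfl
    exact hne (by group)
  have h2 : x * q * x⁻¹ ≠ 1 := by
    intro h
    apply hq1
    have : q = x⁻¹ * (x * q * x⁻¹) * x := by group
    rw [this, h]; group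
  have h3 := eq_of_card_two hQc h1 hq h2 hq1
  apply hne
  calc x * q = x * q * x⁻¹ * x := by group
    _ = q * x := by rw [h3]

end Ctx

/-- S4385 from the packages. -/
theorem s4385_of_packages (h1 : LemCardP.{u}) (h2 : LemExpTwo.{u}) (h3 : LemCube.{u})
    (h24 : LemIdent24.{u}) (h48 : LemIdent48.{u}) (hV4 : LemIdentV4.{u})
    (h6 : LemDihExtract.{u}) [Finite G]
    (H : Subgroup G) (hO : Cfsg.pCore 2 ↥H ≠ ⊥) (n : ℕ) (hn : 2 ≤ n)
    (hdih : Nonempty (↥H ⧸ Cfsg.pCore 2 ↥H ≃* DihedralGroup n))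
    (P : Subgroup G) (hPH : P ≤ H) (hP : IsPGroup 2 P) (hPsyl : ¬ 2 ∣ P.relIndex H)
    (y : G)
    (hy2 : y ^ 2 ∈ P ⊔ Subgroup.centralizer (P : Set G)) (hyN : MulAut.conj y • P = P)
    (hyQ : ∀ Q : Subgroup G, Q ≤ P → (Q.subgroupOf H).Normal → MulAut.conj y • Q = Q → Q = ⊥) :
    (Nat.card P = 4 ∨ Nat.card P = 8 ∨ Nat.card P = 16) ∧
    (Nonempty (↥H ⧸ Cfsg.oddCore ↥H ≃* Multiplicative (ZMod 2) × Multiplicative (ZMod 2)) ∨
     Nonempty (↥H ⧸ Cfsg.oddCore ↥H ≃* Equiv.Perm (Fin 4)) ∨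
     Nonempty (↥H ⧸ Cfsg.oddCore ↥H ≃* Equiv.Perm (Fin 4) × Multiplicative (ZMod 2))) := by
  obtain ⟨M₀, x₀, hT, hQP, hPQ, hPM⟩ := h6 G H n hn hdih P hPH hP hPsyl
  set K := Cfsg.pCore 2 ↥H with hK
  set Q := K.map H.subtype with hQ
  set M := M₀.map H.subtype with hM
  have hdG : DihG H Q M (x₀ : G) n := dihG_of_dihT H hT
  have hQ1 : Q ≠ ⊥ := by
    rw [hQ, Ne, Subgroup.map_eq_bot_iff_of_injective _ H.subtype_injective]; exact hO
  have ctx : Ctx H P Q M (x₀ : G) y n :=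
    ⟨hdG, hPH, hQP, hPQ, hPM, hyN, nc_of_hyQ H P hPH y hy2 hyN hyQ, hQ1⟩
  obtain ⟨t, ht, hcard⟩ := h1 G H P Q M x₀ y n ctx
  have hexp := h2 G H P Q M x₀ y n ctx ⟨t, ht, hcard⟩
  have hx3 := h3 G H P Q M x₀ y n ctx hexp
  have hQP2 := card_mul_two_of_relIndex hQP hPQ
  have hQ2 : 2 ≤ Nat.card Q := by
    have := (Subgroup.one_lt_card_iff_ne_bot Q).mpr hQ1; omega
  have hKQ : Nat.card K = Nat.card Q :=
    (Subgroup.card_map_of_injective H.subtype_injective).symm
  have hexp₀ : ∀ q ∈ K, q * q = 1 := by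
    intro q hq
    exact Subtype.ext (by simpa using hexp (q : G) ⟨q, hq, rfl⟩)
  by_cases hxc : ∀ q ∈ Q, (x₀ : G) * q = q * x₀
  · obtain ⟨hQc, hPc, hP2⟩ := ctx.caseI hy2 hyQ hexp hxc
    refine ⟨Or.inl hPc, Or.inl ?_⟩
    refine hV4 ↥H K M₀ x₀ n hT (hKQ.trans hQc) (P.subgroupOf H) ?_ ?_ ?_
    · exact Subgroup.map_le_iff_le_comap.mp hQP
    · rw [Nat.card_congr (Subgroup.subgroupOfEquivOfLe hPH).toEquiv]; exact hPc
    · intro p hp
      exact Subtype.ext (by simpa using hP2 (p : G) (Subgroup.mem_subgroupOf.mp hp))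
  · push Not at hxc
    have hQne2 := ctx.caseII hxc
    obtain ⟨τ, hτP, hτM, hτ2⟩ := ctx.exists_tau hexp
    have hx3₀ : ∀ q ∈ K, x₀ ^ 3 * q = q * x₀ ^ 3 := by
      intro q hq
      exact Subtype.ext (by simpa using hx3 (q : G) ⟨q, hq, rfl⟩)
    have hxnc₀ : ∃ q ∈ K, x₀ * q ≠ q * x₀ := by
      obtain ⟨q, ⟨q₀, hq₀, rfl⟩, hne⟩ := hxc
      exact ⟨q₀, hq₀, fun h => hne (by simpa using congrArg Subtype.val h)⟩
    have ht' : Nat.card Q = 4 ∨ Nat.card Q = 8 := by
      have h5 : Nat.card P = 1 ∨ Nat.card P = 2 ∨ Nat.card P = 4 ∨ Nat.card P = 8 ∨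
          Nat.card P = 16 := by
        rw [hcard]; interval_cases t <;> simp
      omega
    rcases ht' with h4 | h8
    · refine ⟨Or.inr (Or.inl (by omega)), Or.inr (Or.inl ?_)⟩
      exact h24 ↥H K M₀ x₀ n hT (hKQ.trans h4) hexp₀ hx3₀ hxnc₀
    · refine ⟨Or.inr (Or.inr (by omega)), Or.inr (Or.inr ?_)⟩
      refine h48 ↥H K M₀ x₀ n hT (hKQ.trans h8) hexp₀ hx3₀ hxnc₀ ⟨τ, hPH hτP⟩
        (Subtype.ext (by simpa using hτ2)) ?_
      intro hc
      exact hτM ⟨⟨τ, hPH hτP⟩, hc, rfl⟩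

end Cfsg.Agent.Lib.Helper30.DSims
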